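import Cfsg.Agent.LieClassical.OrthFinite

/-!
# S3691, task T2: overgroups of `Ω(Q)` in the symplectic group, characteristic two (helper177)

* `tv`, `sp_mem` : the symplectic transvections generate the isometry group of the polar form;
* `sp_over` : a group between `E Q` and the isometry group of the polar form lies in `O Q` or contains all isometries
  of the polar form.
-/

set_option autoImplicit false

namespace Cfsg.Agent.H177.Rg

open Module QuadraticMap Cfsg.Agent.LieClassical.OrthCore Cfsg.Agent.LieClassical.OrthTrans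
  Cfsg.Agent.LieClassical.OrthFinite

universe u v

variable {F : Type u} [Field F] {V : Type v} [AddCommGroup V] [Module F V] {Q : QuadraticForm F V}
  {H : Subgroup (V ≃ₗ[F] V)}

/-! ### characteristic two -/

theorem add_self_two (h2 : (2 : F) = 0) (c : F) : c + c = 0 := by
  rw [← two_mul, h2, zero_mul]

theorem neg_two (h2 : (2 : F) = 0) (c : F) : -c = c := by
  linear_combination (-c) * h2

theorem polar_self_two (h2 : (2 : F) = 0) (x : V) : polar Q x x = 0 := by
  rw [polar_self', h2, zero_mul]

theorem sq_inj (h2 : (2 : F) = 0) {a b : F} (h : a ^ 2 = b ^ 2) : a = b := by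
  have h1 : (a - b) ^ 2 = 0 := by linear_combination h + (b ^ 2 - a * b) * h2
  exact sub_eq_zero.1 (pow_eq_zero_iff two_ne_zero |>.1 h1)

theorem exists_sq [Finite F] (h2 : (2 : F) = 0) (c : F) : ∃ e : F, e ^ 2 = c := by
  have h1 : Function.Injective (fun a : F => a ^ 2) := fun a b h => sq_inj h2 h
  exact (Finite.injective_iff_surjective.1 h1) c

/-! ### symplectic transvections -/

/-- the linear map `v ↦ v + c B(x,v) x` -/
def tvLin (Q : QuadraticForm F V) (c : F) (x : V) : V →ₗ[F] V :=
  LinearMap.id + c • (polarBilin Q x).smulRight x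

theorem tvLin_apply (c : F) (x v : V) : tvLin Q c x v = v + (c * polar Q x v) • x := by
  simp only [tvLin, LinearMap.add_apply, LinearMap.id_apply, LinearMap.smul_apply,
    LinearMap.smulRight_apply, polarBilin_apply_apply, smul_smul]

theorem tvLin_tvLin (h2 : (2 : F) = 0) (c : F) (x v : V) : tvLin Q c x (tvLin Q c x v) = v := by
  simp only [tvLin_apply, polar_add_right, polar_smul_right, polar_self_two h2, smul_eq_mul, mul_zero, add_zero]
  rw [add_assoc, ← add_smul, add_self_two h2, zero_smul, add_zero]

/-- the transvection `v ↦ v + c B(x,v) x` in characteristic two -/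
def tv (h2 : (2 : F) = 0) (Q : QuadraticForm F V) (c : F) (x : V) : V ≃ₗ[F] V :=
  LinearEquiv.ofLinearMap (tvLin Q c x) (tvLin Q c x)
    (by ext v; exact tvLin_tvLin h2 c x v) (by ext v; exact tvLin_tvLin h2 c x v)

theorem tv_apply (h2 : (2 : F) = 0) (c : F) (x v : V) : tv h2 Q c x v = v + (c * polar Q x v) • x :=
  tvLin_apply c x v

theorem tv_polar (h2 : (2 : F) = 0) (c : F) (x u v : V) :
    polar Q (tv h2 Q c x u) (tv h2 Q c x v) = polar Q u v := by
  simp only [tv_apply, polar_add_left, polar_add_right, polar_smul_left, polar_smul_right, polar_self_two h2,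
    smul_eq_mul]
  rw [polar_comm Q u x]
  linear_combination (c * polar Q x u * polar Q x v) * h2

theorem tv_zero (h2 : (2 : F) = 0) (c : F) : tv h2 Q c 0 = 1 := by
  ext v
  rw [tv_apply, smul_zero, add_zero]
  rfl

theorem tv_conj (h2 : (2 : F) = 0) {g : V ≃ₗ[F] V} (hg : ∀ u v, polar Q (g u) (g v) = polar Q u v) (c : F) (x : V) :
    g * tv h2 Q c x * g⁻¹ = tv h2 Q c (g x) := by
  ext v
  obtain ⟨v, rfl⟩ := g.surjective v
  have h1 : (g * tv h2 Q c x * g⁻¹) (g v) = g (tv h2 Q c x v) := by
    show g (tv h2 Q c x (g.symm (g v))) = _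
    rw [LinearEquiv.symm_apply_apply]
  rw [h1, tv_apply, tv_apply, hg, map_add, map_smul]

/-- the transvections generate the symplectic group -/
theorem sp_mem [FiniteDimensional F V] (h2 : (2 : F) = 0) (hQ : Nondeg Q) (hH : ∀ c x, tv h2 Q c x ∈ H)
    {g : V ≃ₗ[F] V} (hg : ∀ u v, polar Q (g u) (g v) = polar Q u v) : g ∈ H := by
  suffices key : ∀ (n : ℕ) (g : V ≃ₗ[F] V), (∀ u v, polar Q (g u) (g v) = polar Q u v) →
      finrank F V - finrank F (LinearMap.ker (g.toLinearMap - LinearMap.id)) = n → g ∈ H from key _ g hg rfl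
  intro n
  induction n using Nat.strong_induction_on with
  | _ n ih =>
    intro g hg hn
    by_cases hone : ∀ w, g w = w
    · have : g = 1 := by ext w; exact hone w
      rw [this]
      exact H.one_mem
    push Not at hone
    have step : ∀ (r : V ≃ₗ[F] V), (∀ u v, polar Q (r u) (r v) = polar Q u v) → r ∈ H →
        (∀ s, g s = s → r s = s) → (∃ w, g w ≠ w ∧ r (g w) = w) → g ∈ H := by
      intro r hrO hr hfix ⟨w, hw, hrw⟩
      have hlt : LinearMap.ker (g.toLinearMap - LinearMap.id) <
          LinearMap.ker ((r * g).toLinearMap - LinearMap.id) := by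
        refine lt_of_le_of_ne ?_ ?_
        · intro s hs
          rw [LinearMap.mem_ker, LinearMap.sub_apply, sub_eq_zero] at hs ⊢
          have hs' : g s = s := hs
          show r (g s) = s
          rw [hs', hfix s hs']
        · intro heq
          have : w ∈ LinearMap.ker ((r * g).toLinearMap - LinearMap.id) := by
            rw [LinearMap.mem_ker, LinearMap.sub_apply, sub_eq_zero]
            exact hrw
          rw [← heq, LinearMap.mem_ker, LinearMap.sub_apply, sub_eq_zero] at this
          exact hw this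
      have hlt' := Submodule.finrank_lt_finrank_of_lt hlt
      have hle := Submodule.finrank_le (LinearMap.ker ((r * g).toLinearMap - LinearMap.id))
      have hmem := ih _ (by omega) (r * g) (fun u v => by
        show polar Q (r (g u)) (r (g v)) = _
        rw [hrO, hg]) rfl
      have : g = r⁻¹ * (r * g) := by group
      rw [this]
      exact H.mul_mem (H.inv_mem hr) hmem
    have hfixp : ∀ v s, g s = s → polar Q (g v - v) s = 0 := by
      intro v s hs
      rw [polar_sub_left]
      nth_rewrite 1 [← hs]
      rw [hg, sub_self]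
    by_cases hA : ∃ v, polar Q v (g v) ≠ 0
    · obtain ⟨v, hv⟩ := hA
      refine step (tv h2 Q (polar Q v (g v))⁻¹ (g v - v)) (tv_polar h2 _ _) (hH _ _) ?_ ⟨v, ?_, ?_⟩
      · intro s hs
        rw [tv_apply, hfixp v s hs, mul_zero, zero_smul, add_zero]
      · intro h
        rw [h] at hv
        exact hv (polar_self_two h2 v)
      · rw [tv_apply, polar_sub_left, polar_self_two h2, zero_sub, neg_two h2, inv_mul_cancel₀ hv, one_smul]
        have h3 : g v + (g v - v) = v + (2 : F) • (g v - v) := by module
        rw [h3, h2, zero_smul, add_zero]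
    · push Not at hA
      obtain ⟨v, hv⟩ := hone
      obtain ⟨y, hy⟩ := hQ.exists_polar_eq (sub_ne_zero.2 hv) 1
      have hsw : ∀ a b, polar Q a (g b) = polar Q (g a) b := by
        intro a b
        have h3 := hA (a + b)
        rw [map_add, polar_add_left, polar_add_right, polar_add_right, hA a, hA b, zero_add, add_zero] at h3
        rw [polar_comm Q b] at h3
        linear_combination h3 - polar Q (g a) b * h2
      -- `u = g v + (g y - y)`
      have e1 : tv h2 Q 1 (g y - y) (g v) = g v + (g y - y) := by
        have h3 : polar Q (g y - y) (g v) = 1 := by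
          rw [polar_sub_left, hg, hsw, polar_comm Q (g y) v, hsw, polar_comm Q y v, ← polar_sub_left] 
          rw [polar_sub_left] at hy
          rw [polar_sub_left]
          linear_combination hy + (polar Q v y - polar Q (g v) y) * h2
        rw [tv_apply, h3, mul_one, one_smul]
      have e2 : tv h2 Q 1 (g v + (g y - y) - v) (g v + (g y - y)) = v := by
        have h3 : polar Q (g v + (g y - y) - v) (g v + (g y - y)) = 1 := by
          rw [polar_sub_left, polar_self_two h2, polar_add_right, hA, polar_sub_right, hsw]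
          rw [polar_sub_left] at hy
          linear_combination hy + (polar Q v y - polar Q (g v) y) * h2
        rw [tv_apply, h3, mul_one, one_smul]
        have h4 : g v + (g y - y) + (g v + (g y - y) - v) = v + (2 : F) • (g v + (g y - y) - v) := by module
        rw [h4, h2, zero_smul, add_zero]
      refine step (tv h2 Q 1 (g v + (g y - y) - v) * tv h2 Q 1 (g y - y)) ?_ (H.mul_mem (hH _ _) (hH _ _)) ?_
        ⟨v, hv, ?_⟩
      · intro a b
        show polar Q (tv h2 Q 1 _ (tv h2 Q 1 _ a)) (tv h2 Q 1 _ (tv h2 Q 1 _ b)) = _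
        rw [tv_polar, tv_polar]
      · intro s hs
        show tv h2 Q 1 _ (tv h2 Q 1 _ s) = s
        have h3 : polar Q (g v + (g y - y) - v) s = 0 := by
          have h4 : g v + (g y - y) - v = (g v - v) + (g y - y) := by abel
          rw [h4, polar_add_left, hfixp v s hs, hfixp y s hs, add_zero]
        rw [tv_apply h2 1 (g y - y), hfixp y s hs, mul_zero, zero_smul, add_zero, tv_apply, h3, mul_zero, zero_smul,
          add_zero]
      · show tv h2 Q 1 _ (tv h2 Q 1 _ (g v)) = v
        rw [e1, e2]

/-! ### linear functionals -/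

theorem exists_vec [FiniteDimensional F V] (hQ : Nondeg Q) (f : V →ₗ[F] F) : ∃ w : V, ∀ v, f v = polar Q w v := by
  have h1 : Function.Injective (polarBilin Q : V →ₗ[F] V →ₗ[F] F) := by
    rw [← LinearMap.ker_eq_bot, LinearMap.ker_eq_bot']
    intro x hx
    exact hQ x fun y => by rw [← polarBilin_apply_apply, hx]; rfl
  have h2 : Function.Surjective (polarBilin Q : V →ₗ[F] V →ₗ[F] F) :=
    (LinearMap.injective_iff_surjective_of_finrank_eq_finrank (by
      rw [Module.finrank_linearMap, Module.finrank_self, mul_one])).1 h1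
  obtain ⟨w, hw⟩ := h2 f
  exact ⟨w, fun v => by rw [← hw]; rfl⟩

/-- the difference of two quadratic forms with the same polar form is the square of a linear functional -/
theorem exists_diff [Finite F] [FiniteDimensional F V] (h2 : (2 : F) = 0) (hQ : Nondeg Q) {g : V ≃ₗ[F] V}
    (hg : ∀ u v, polar Q (g u) (g v) = polar Q u v) :
    ∃ w : V, ∀ v, Q v + Q (g v) = polar Q w v ^ 2 := by
  choose sq hsq using exists_sq (F := F) h2
  let f : V →ₗ[F] F :=
    { toFun := fun v => sq (Q v + Q (g v))
      map_add' := fun a b => by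
        refine sq_inj h2 ?_
        rw [hsq, map_add g, Q_add, Q_add, hg]
        linear_combination (-1 : F) * hsq (Q a + Q (g a)) - hsq (Q b + Q (g b)) +
          (polar Q a b - sq (Q a + Q (g a)) * sq (Q b + Q (g b))) * h2
      map_smul' := fun c a => by
        refine sq_inj h2 ?_
        rw [hsq, map_smul g, QuadraticMap.map_smul, QuadraticMap.map_smul, RingHom.id_apply, smul_eq_mul,
          smul_eq_mul, smul_eq_mul]
        linear_combination (-1 : F) * c ^ 2 * hsq (Q a + Q (g a)) }
  obtain ⟨w, hw⟩ := exists_vec hQ f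
  refine ⟨w, fun v => ?_⟩
  rw [← hw]
  exact (hsq _).symm

/-! ### overgroups -/

/-- **(T2) overgroups of `Ω(Q)` in `Sp`, characteristic two** -/
theorem sp_over_of_finite [Finite F] [FiniteDimensional F V] (h2 : (2 : F) = 0) (hQ : Nondeg Q)
    (hn : 5 ≤ finrank F V) (hH : ∀ h ∈ H, ∀ u v, polar Q (h u) (h v) = polar Q u v) (hE : E Q ≤ H) :
    H ≤ O Q ∨ ∀ x : V ≃ₗ[F] V, (∀ u v, polar Q (x u) (x v) = polar Q u v) → x ∈ H := by
  by_cases hO : H ≤ O Q
  · exact Or.inl hO
  right
  obtain ⟨g, hgH, hgO⟩ := SetLike.not_le_iff_exists.1 hO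
  have hg := hH g hgH
  have hG : Good Q := good_of_finite hQ hn
  obtain ⟨w, hw⟩ := exists_diff h2 hQ hg
  have hw0 : w ≠ 0 := by
    rintro rfl
    refine hgO fun v => ?_
    have h3 := hw v
    rw [polar_zero_left] at h3
    linear_combination h3 - Q v * h2
  obtain ⟨w', hw'⟩ := hQ.exists_polar_eq hw0 1
  obtain ⟨x, hx0, hx, hxp⟩ := exists_sing_perp (Q := Q) ![w, w'] (by omega)
  have hwx : polar Q w x = 0 := hxp 0
  have hw'x : polar Q w' x = 0 := hxp 1
  have hgx : Q (g x) = 0 := by
    have h3 := hw x
    rw [hx, hwx] at h3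
    linear_combination h3
  obtain ⟨y, hxy, hwy⟩ := exists_sep hQ (x := w) (z := x) (by
    intro c hc
    rw [hc, polar_smul_left, polar_comm, hw'x, smul_zero] at hw'
    exact zero_ne_one hw')
  -- the transvections with centre `x`
  have tv_x : ∀ c, tv h2 Q c x ∈ H := by
    intro c
    obtain ⟨e, he⟩ := exists_sq h2 c
    have h3 : polar Q x (e • y) = 0 := by rw [polar_smul_right, hxy, smul_zero]
    have h4 : polar Q (g x) (g (e • y)) = 0 := by rw [hg, h3]
    have h5 : tv h2 Q c x = siegel Q x (e • y) hx h3 * (g⁻¹ * siegel Q (g x) (g (e • y)) hgx h4 * g) := by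
      ext v
      have h6 : (g⁻¹ * siegel Q (g x) (g (e • y)) hgx h4 * g) v =
          v + polar Q x v • (e • y) - polar Q (e • y) v • x - (Q (g (e • y)) * polar Q x v) • x := by
        show g.symm (siegel Q (g x) (g (e • y)) hgx h4 (g v)) = _
        rw [siegel_apply, hg, hg, map_sub, map_sub, map_add, map_smul g.symm, map_smul g.symm, map_smul g.symm,
          LinearEquiv.symm_apply_apply, LinearEquiv.symm_apply_apply, LinearEquiv.symm_apply_apply]
      have h7 : Q (e • y) + Q (g (e • y)) = c := by
        rw [hw, polar_smul_right, hwy, smul_eq_mul, mul_one, he]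
      show _ = siegel Q x (e • y) hx h3 ((g⁻¹ * siegel Q (g x) (g (e • y)) hgx h4 * g) v)
      rw [h6, siegel_apply, tv_apply, ← h7]
      have hyy : polar Q (e • y) (e • y) = 0 := polar_self_two h2 _
      have hyx : polar Q (e • y) x = 0 := by rw [polar_comm, h3]
      simp only [polar_add_right, polar_sub_right, polar_smul_right, polar_self_two h2, h3, hyx, smul_eq_mul,
        mul_zero, add_zero, sub_zero]
      match_scalars
      · ring
      · linear_combination (Q (e • y) * polar Q x v + Q (g (e • y)) * polar Q x v + polar Q (e • y) v) * h2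
      · linear_combination (-(polar Q x v * e)) * h2
    rw [h5]
    exact H.mul_mem (hE (siegel_mem_E hx h3))
      (H.mul_mem (H.mul_mem (H.inv_mem hgH) (hE (siegel_mem_E hgx h4))) hgH)
  -- the transvections with singular centre
  have tv_sing : ∀ x' : V, Q x' = 0 → ∀ c, tv h2 Q c x' ∈ H := by
    intro x' hx' c
    by_cases h0 : x' = 0
    · rw [h0, tv_zero]
      exact H.one_mem
    obtain ⟨k, hk, hkx⟩ := hG.trans_sing hx hx' hx0 h0
    rw [← hkx, ← tv_conj h2 (hH k (hE hk))]
    exact H.mul_mem (H.mul_mem (hE hk) (tv_x c)) (H.inv_mem (hE hk))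
  -- all transvections
  have tv_all : ∀ c u, tv h2 Q c u ∈ H := by
    intro c u
    by_cases hu : Q u = 0
    · exact tv_sing u hu c
    have hu0 : u ≠ 0 := by
      rintro rfl
      exact hu (QuadraticMap.map_zero Q)
    obtain ⟨x₁, y₁, hxy₁⟩ := hG.exists_hyp
    obtain ⟨z, hz, hzu⟩ : ∃ z, Q z = 0 ∧ polar Q z u ≠ 0 := by
      by_contra hcon
      push Not at hcon
      refine hu0 (hQ u fun v => ?_)
      refine sing_induction hxy₁ (P := fun v => polar Q u v = 0) (fun a b ha hb => ?_) (fun a ha => ?_) v
      · rw [polar_add_right, ha, hb, add_zero]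
      · rw [polar_comm]
        exact hcon a ha
    -- scale
    obtain ⟨z, hz, hzu⟩ : ∃ z, Q z = 0 ∧ polar Q z u = 1 :=
      ⟨(polar Q z u)⁻¹ • z, by rw [QuadraticMap.map_smul, hz, smul_zero],
        by rw [polar_smul_left, smul_eq_mul, inv_mul_cancel₀ hzu]⟩
    have h3 : Q (u + Q u • z) = 0 := by
      rw [Q_add, QuadraticMap.map_smul, hz, polar_smul_right, polar_comm, hzu, smul_zero, smul_eq_mul, mul_one,
        add_zero, add_self_two h2]
    have h4 : tv h2 Q (Q u) z (u + Q u • z) = u := by
      rw [tv_apply, polar_add_right, polar_smul_right, polar_self_two h2, hzu, smul_zero, add_zero, mul_one,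
        add_assoc, ← add_smul, add_self_two h2, zero_smul, add_zero]
    rw [← h4, ← tv_conj h2 (tv_polar h2 (Q u) z)]
    exact H.mul_mem (H.mul_mem (tv_sing z hz _) (tv_sing _ h3 c)) (H.inv_mem (tv_sing z hz _))
  exact fun x hx => sp_mem h2 hQ tv_all hx

/-- **(T2)**, the form of the plan -/
theorem sp_over [Fintype F] [FiniteDimensional F V] (h2 : (2 : F) = 0) (hQ : Nondeg Q) (hn : 6 ≤ finrank F V)
    (hH : ∀ h ∈ H, ∀ u v, polar Q (h u) (h v) = polar Q u v) (hE : E Q ≤ H) :
    H ≤ O Q ∨ ∀ x : V ≃ₗ[F] V, (∀ u v, polar Q (x u) (x v) = polar Q u v) → x ∈ H :=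
  sp_over_of_finite h2 hQ (by omega) hH hE

end Cfsg.Agent.H177.Rg
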